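import Cfsg.Agent.KFacts.J2.Aut
import Cfsg.Agent.H96.SK.A5

/-!
# Sidki pairs, the row `J₂`: the centraliser of a dihedral group of order 10 (helper96)

For an element `w` of order 5 of the `A₅` in `C(u) = V × A₅` inverted by the 2-central involution `t`, the group
`C(w) ∩ C(t)` is isomorphic to `A₅`.
-/

set_option autoImplicit false
set_option linter.style.haveILetI false

namespace Cfsg.Agent.H96.SK.J2Facts

open Subgroup Cfsg.Agent.J2Type.Base Cfsg.Agent.J2Type.HStr Cfsg.Agent.J2Type.CentU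
  Cfsg.Agent.J2Type.FourSelfCent Cfsg.Agent.J2Type.SylowSeven Cfsg.Agent.J2Type.CentQuot
  Cfsg.Agent.J2Type.A5Facts Cfsg.Agent.J2Type.Cent5

variable {X : Type*} [Group X]

/-- an automorphism of a group isomorphic to `A₅` as a permutation -/
theorem exists_perm {L : Type*} [Group L] (e : L ≃* alternatingGroup (Fin 5)) (θ : MulAut L) :
    ∃ σ : Equiv.Perm (Fin 5), ∀ x : L, ((e (θ x) : alternatingGroup (Fin 5)) : Equiv.Perm (Fin 5)) = σ * e x * σ⁻¹ := by
  obtain ⟨σ, hσ⟩ := (Cfsg.Agent.S2119.result 5 (by norm_num) (by norm_num)).2 ((e.symm.trans θ).trans e)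
  refine ⟨σ, fun x => ?_⟩
  have h1 := MulAut.conjNormal_apply (H := alternatingGroup (Fin 5)) σ (e x)
  rw [hσ] at h1
  rw [← h1]
  show ((e (θ x) : alternatingGroup (Fin 5)) : Equiv.Perm (Fin 5)) = (e (θ (e.symm (e x))) : alternatingGroup (Fin 5))
  rw [e.symm_apply_apply]

theorem perm_comm {L : Type*} [Group L] {e : L ≃* alternatingGroup (Fin 5)} {θ : MulAut L}
    {σ : Equiv.Perm (Fin 5)}
    (hσ : ∀ x : L, ((e (θ x) : alternatingGroup (Fin 5)) : Equiv.Perm (Fin 5)) = σ * e x * σ⁻¹) {x : L} (hx : θ x = x) :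
    σ * (e x : Equiv.Perm (Fin 5)) = e x * σ := by
  have h := hσ x
  rw [hx] at h
  exact (eq_mul_inv_iff_mul_eq.1 h).symm

theorem id_of_perm {L : Type*} [Group L] {e : L ≃* alternatingGroup (Fin 5)} {θ : MulAut L}
    (hσ : ∀ x : L, ((e (θ x) : alternatingGroup (Fin 5)) : Equiv.Perm (Fin 5)) = 1 * e x * 1⁻¹) (x : L) : θ x = x := by
  apply e.injective
  apply Subtype.ext
  rw [hσ x, one_mul, inv_one, mul_one]

/-- the permutation of `θ` with `θ³ = 1` has cube 1 -/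
theorem perm_cube {L : Type*} [Group L] {e : L ≃* alternatingGroup (Fin 5)} {θ : MulAut L}
    {σ : Equiv.Perm (Fin 5)}
    (hσ : ∀ x : L, ((e (θ x) : alternatingGroup (Fin 5)) : Equiv.Perm (Fin 5)) = σ * e x * σ⁻¹)
    (h3 : ∀ x, θ (θ (θ x)) = x) : σ ^ 3 = 1 := by
  apply (Cfsg.Agent.S2119.result 5 (by norm_num) (by norm_num)).1
  rw [map_one]
  apply MulEquiv.ext
  intro y
  apply Subtype.ext
  rw [MulAut.one_apply]
  have h1 := MulAut.conjNormal_apply (H := alternatingGroup (Fin 5)) (σ ^ 3) y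
  rw [h1]
  have h2 := h3 (e.symm y)
  have h4 : ((e (θ (θ (θ (e.symm y)))) : alternatingGroup (Fin 5)) : Equiv.Perm (Fin 5)) = y := by
    rw [h2, e.apply_symm_apply]
  rw [hσ, hσ, hσ, e.apply_symm_apply] at h4
  rw [pow_succ, pow_two]
  calc σ * σ * σ * (y : Equiv.Perm (Fin 5)) * (σ * σ * σ)⁻¹ = σ * (σ * (σ * y * σ⁻¹) * σ⁻¹) * σ⁻¹ := by group
    _ = y := h4

section basic

variable [Finite X] {t u f : X} {U V H0 : Subgroup X}

theorem order_five {L : Type*} [Group L] {g : L} (h5 : g ^ 5 = 1) (h1 : g ≠ 1) : orderOf g = 5 := by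
  haveI : Fact (Nat.Prime 5) := ⟨by norm_num⟩
  exact orderOf_eq_prime h5 h1

/-- an element of order 5 of `H0` inverted by `t` -/
theorem exists_w (h : Fus t u) (F : Full t u f U V H0) (h60 : Nat.card H0 = 60) :
    ∃ w ∈ H0, orderOf w = 5 ∧ t * w * t⁻¹ = w⁻¹ := by
  obtain ⟨e⟩ := exists_equiv h F h60
  have htH : t ∈ H0 := F.U_le F.zU
  have htt : t * t = 1 := J2Type.CentU.zz h
  have ht1 : t ≠ 1 := J2Type.CentU.z_ne h
  obtain ⟨w, h5, h1, hi⟩ := A5.exists_inv (e ⟨t, htH⟩) (by rw [← map_mul]; rw [show (⟨t, htH⟩ : H0) * ⟨t, htH⟩ = 1 from Subtype.ext htt, map_one])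
    (fun h' => ht1 (congrArg Subtype.val (e.injective (h'.trans (map_one e).symm))))
  refine ⟨(e.symm w : H0), (e.symm w).2, ?_, ?_⟩
  · rw [orderOf_coe, MulEquiv.orderOf_eq]
    exact order_five h5 h1
  · have h2 : (⟨t, htH⟩ : H0) * e.symm w * (⟨t, htH⟩)⁻¹ = (e.symm w)⁻¹ := by
      apply e.injective
      rw [map_mul, map_mul, map_inv, map_inv, e.apply_symm_apply]
      exact hi
    exact congrArg Subtype.val h2

/-- an involution of `V` different from `u` -/
theorem exists_u' (F : Full t u f U V H0) (hu1 : u ≠ 1) : ∃ u' ∈ V, u' ≠ 1 ∧ u' ≠ u := by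
  classical
  by_contra hcon
  push Not at hcon
  have h1 : ∀ x ∈ V, x = 1 ∨ x = u := by
    intro x hx
    by_cases hx1 : x = 1
    · exact Or.inl hx1
    · exact Or.inr (hcon x hx hx1)
  have h2 : Nat.card V ≤ 2 := by
    have hs : (V : Set X) ⊆ ({1, u} : Set X) := fun x hx => h1 x hx
    calc Nat.card V = (V : Set X).ncard := (Nat.card_coe_set_eq _)
      _ ≤ ({1, u} : Set X).ncard := Set.ncard_le_ncard hs (Set.toFinite _)
      _ = 2 := Set.ncard_pair hu1.symm
  rw [F.cardV] at h2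
  omega

/-- an element of order 3 centralising `H0` and moving `u` inside `V` -/
theorem exists_c (h : Fus t u) (F : Full t u f U V H0) (h60 : Nat.card H0 = 60) {w : X} (hw : w ∈ H0)
    (h5 : orderOf w = 5) :
    ∃ c : X, (∀ x ∈ H0, c * x = x * c) ∧ c * u * c⁻¹ ∈ V ∧ c * u * c⁻¹ ≠ u := by
  have hG := Cfsg.Agent.J2Type.Order.card_of_fus h
  obtain ⟨e⟩ := exists_equiv h F h60
  obtain ⟨q⟩ := exists_equiv_CQ h F h60 hG hw h5
  have huu : u * u = 1 := J2Type.CentU.uu h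
  have hu1 : u ≠ 1 := J2Type.CentU.u_ne h
  have huV : u ∈ V := F.uV
  obtain ⟨u', hu'V, hu'1, hu'u⟩ := exists_u' F hu1
  have hu'u' : u' * u' = 1 := sq_V h F hu'V
  have hVw : ∀ y ∈ V, y * w = w * y := fun y hy => V_comm h F h60 hy hw
  have hodd5 : Odd 5 := by decide
  have hw5 : w ^ 5 = 1 := by rw [← h5]; exact pow_orderOf_eq_one w
  let a : centralizer ({w} : Set X) := ⟨u, mem_centralizer_singleton_iff.2 (hVw u huV)⟩
  let b : centralizer ({w} : Set X) := ⟨u', mem_centralizer_singleton_iff.2 (hVw u' hu'V)⟩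
  have hne : ∀ x : centralizer ({w} : Set X), (x : X) * x = 1 → (x : CQ w) = 1 → (x : X) = 1 := by
    intro x hx hx1
    exact eq_one_of_sq_of_mem_zpowers hodd5 h5 hx ((J2Type.CentQuot.mk_eq_one x).1 hx1)
  obtain ⟨c0, hc3, hc1, hcc⟩ := A5.exists_c (q (a : CQ w)) (q (b : CQ w))
    (by rw [← map_mul, ← QuotientGroup.mk_mul, show a * a = 1 from Subtype.ext huu]; exact map_one q)
    (fun h' => hu1 (hne a huu (q.injective (h'.trans (map_one q).symm))))
    (by rw [← map_mul, ← QuotientGroup.mk_mul, show b * b = 1 from Subtype.ext hu'u']; exact map_one q)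
    (fun h' => hu'1 (hne b hu'u' (q.injective (h'.trans (map_one q).symm))))
    (by
      intro h'
      have h1 : ((a⁻¹ * b : centralizer ({w} : Set X)) : CQ w) = 1 := by
        rw [QuotientGroup.mk_mul, QuotientGroup.mk_inv, q.injective h', inv_mul_cancel]
      have h2 := hne (a⁻¹ * b) (by
        show (u⁻¹ * u') * (u⁻¹ * u') = 1
        exact sq_V h F (V.mul_mem (V.inv_mem huV) hu'V)) h1
      have h3 : u⁻¹ * u' = 1 := h2
      exact hu'u (inv_mul_eq_one.1 h3).symm)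
    (by rw [← map_mul, ← map_mul, ← QuotientGroup.mk_mul, ← QuotientGroup.mk_mul,
          show a * b = b * a from Subtype.ext (comm_V h F huV hu'V)])
  obtain ⟨c1, hc1'⟩ := QuotientGroup.mk_surjective (q.symm c0)
  have hcw : (c1 : X) * w = w * c1 := mem_centralizer_singleton_iff.1 c1.2
  -- `c1 u c1⁻¹ = u'`
  have e1 : ((c1 * a * c1⁻¹ : centralizer ({w} : Set X)) : CQ w) = (b : CQ w) := by
    apply q.injective
    rw [QuotientGroup.mk_mul, QuotientGroup.mk_mul, QuotientGroup.mk_inv, map_mul, map_mul, map_inv, hc1',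
      q.apply_symm_apply]
    exact hcc
  have e2 : (c1 : X) * u * (c1 : X)⁻¹ = u' := by
    obtain ⟨k, hk⟩ := mem_zpowers_iff.1 (mem_cyc.1 (QuotientGroup.eq.1 e1))
    have hk' : w ^ k = ((c1 : X) * u * (c1 : X)⁻¹)⁻¹ * u' := hk
    have e3 : (c1 : X) * u * (c1 : X)⁻¹ = u' * w ^ (-k) := by
      have : (c1 : X) * u * (c1 : X)⁻¹ = u' * (((c1 : X) * u * (c1 : X)⁻¹)⁻¹ * u')⁻¹ := by group
      rw [this, ← hk', zpow_neg]
    have hcomm : Commute u' (w ^ (-k)) := (show Commute u' w from hVw u' hu'V).zpow_right _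
    have e4 : w ^ (-k) * w ^ (-k) = 1 := by
      have h1 : ((c1 : X) * u * (c1 : X)⁻¹) * ((c1 : X) * u * (c1 : X)⁻¹) = 1 := by
        calc ((c1 : X) * u * (c1 : X)⁻¹) * ((c1 : X) * u * (c1 : X)⁻¹) = c1 * (u * u) * (c1 : X)⁻¹ := by group
          _ = 1 := by rw [huu]; group
      rw [e3] at h1
      calc w ^ (-k) * w ^ (-k) = (u' * u') * (w ^ (-k) * w ^ (-k)) := by rw [hu'u', one_mul]
        _ = u' * (u' * w ^ (-k)) * w ^ (-k) := by group
        _ = u' * (w ^ (-k) * u') * w ^ (-k) := by rw [hcomm.eq]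
        _ = (u' * w ^ (-k)) * (u' * w ^ (-k)) := by group
        _ = 1 := h1
    rw [e3, eq_one_of_sq_of_mem_zpowers hodd5 h5 e4 (zpow_mem_zpowers w _), mul_one]
  -- `c1 ^ 3` is a power of `w`
  have e5 : (c1 : X) ^ 3 ∈ zpowers w := by
    have h1 : ((c1 ^ 3 : centralizer ({w} : Set X)) : CQ w) = 1 := by
      apply q.injective
      rw [QuotientGroup.mk_pow, map_pow, hc1', q.apply_symm_apply, hc3, map_one]
    exact (J2Type.CentQuot.mk_eq_one (c1 ^ 3)).1 h1
  obtain ⟨j, hj⟩ := mem_zpowers_iff.1 e5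
  set c : X := (c1 : X) ^ 10 with hc
  have hc3' : c ^ 3 = 1 := by
    have h1 : c ^ 3 = ((c1 : X) ^ 3) ^ 10 := by rw [hc, ← pow_mul, ← pow_mul]
    have h2 : (w ^ j) ^ 10 = (w ^ 5) ^ (2 * j) := by
      rw [← zpow_natCast, ← zpow_mul, ← zpow_natCast w 5, ← zpow_mul]
      congr 1
      push_cast; ring
    rw [h1, ← hj, h2, hw5, one_zpow]
  have hcwc : c * w = w * c := (show Commute (c1 : X) w from hcw).pow_left 10
  have hcu : c * u * c⁻¹ = u' := by
    have h1 : c = (w ^ j) ^ 3 * c1 := by rw [hc, hj, ← pow_mul, ← pow_succ]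
    have hcomm : Commute ((w ^ j) ^ 3) u' := (((show Commute u' w from hVw u' hu'V).zpow_right j).pow_right 3).symm
    calc c * u * c⁻¹ = (w ^ j) ^ 3 * (c1 * u * (c1 : X)⁻¹) * ((w ^ j) ^ 3)⁻¹ := by rw [h1]; group
      _ = u' := by rw [e2, hcomm.eq, mul_inv_cancel_right]
  -- `c` normalises `C(u)`
  have hCu : ∀ x, x * u = u * x → (c * x * c⁻¹) * u = u * (c * x * c⁻¹) := by
    intro x hx
    have h1 : (c * x * c⁻¹) * u' = u' * (c * x * c⁻¹) := by
      rw [← hcu]
      calc (c * x * c⁻¹) * (c * u * c⁻¹) = c * (x * u) * c⁻¹ := by group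
        _ = (c * u * c⁻¹) * (c * x * c⁻¹) := by rw [hx]; group
    have h2 : c * x * c⁻¹ ∈ centralizer ({u'} : Set X) := mem_centralizer_singleton_iff.2 h1
    rw [centralizer_eq h F h60 hu'V hu'1] at h2
    exact mem_centralizer_singleton_iff.1 h2
  have hH0 : ∀ x ∈ H0, c * x * c⁻¹ ∈ H0 := by
    intro x hx
    have hxu : x * u = u * x := mem_centralizer_singleton_iff.1 (F.str.le hx)
    have hsq : ∀ y, y * u = u * y → c * (y * y) * c⁻¹ ∈ H0 := by
      intro y hy
      have h1 : c * (y * y) * c⁻¹ = (c * y * c⁻¹) * (c * y * c⁻¹) := by group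
      rw [h1]
      exact F.str.sq_mem _ (mem_centralizer_singleton_iff.2 (hCu y hy))
    have hcase := A5.ord_cases (e ⟨x, hx⟩)
    have hback : ∀ n : ℕ, (e ⟨x, hx⟩) ^ n = 1 → x ^ n = 1 := by
      intro n hn
      rw [← map_pow] at hn
      exact congrArg Subtype.val (e.injective (hn.trans (map_one e).symm))
    rcases hcase with h2 | h3 | h5'
    · have h2' := hback 2 h2
      rw [pow_two] at h2'
      by_cases hx1 : x = 1
      · rw [hx1, mul_one, mul_inv_cancel]; exact H0.one_mem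
      · have hz := F.str.invol x hx (orderOf_eq_prime (by rw [pow_two]; exact h2') hx1)
        exact F.str.z_mem _ (hz.trans (isConj_iff.2 ⟨c, rfl⟩)) (hCu x hxu)
    · have h3' := hback 3 h3
      have e6 : x = x ^ 2 * x ^ 2 := by
        rw [← pow_add, show 2 + 2 = 3 + 1 by norm_num, pow_add, h3', one_mul, pow_one]
      rw [e6]
      exact hsq _ ((show Commute x u from hxu).pow_left 2)
    · have h5'' := hback 5 h5'
      have e6 : x = x ^ 3 * x ^ 3 := by
        rw [← pow_add, show 3 + 3 = 5 + 1 by norm_num, pow_add, h5'', one_mul, pow_one]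
      rw [e6]
      exact hsq _ ((show Commute x u from hxu).pow_left 3)
  have hc3inv : c⁻¹ = c * c := by
    rw [inv_eq_iff_mul_eq_one, ← mul_assoc]
    rw [pow_succ, pow_two] at hc3'
    exact hc3'
  have hH0' : ∀ x ∈ H0, c⁻¹ * x * c ∈ H0 := by
    intro x hx
    have h1 : c⁻¹ * x * c = c * (c * x * c⁻¹) * c⁻¹ := by
      have h2 : c = (c * c)⁻¹ := by rw [← hc3inv, inv_inv]
      calc c⁻¹ * x * c = (c * c) * x * (c * c)⁻¹ := by rw [← h2, ← hc3inv]
        _ = _ := by group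
    rw [h1]
    exact hH0 _ (hH0 x hx)
  -- the automorphism of `H0`
  let θ : MulAut H0 :=
    { toFun := fun x => ⟨c * x * c⁻¹, hH0 x x.2⟩
      invFun := fun x => ⟨c⁻¹ * x * c, hH0' x x.2⟩
      left_inv := fun x => Subtype.ext (by show c⁻¹ * (c * x * c⁻¹) * c = x; group)
      right_inv := fun x => Subtype.ext (by show c * (c⁻¹ * x * c) * c⁻¹ = x; group)
      map_mul' := fun x y => Subtype.ext (by
        show c * (x * y) * c⁻¹ = (c * x * c⁻¹) * (c * y * c⁻¹); group) }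
  obtain ⟨σ, hσ⟩ := exists_perm e θ
  have hθw : θ ⟨w, hw⟩ = ⟨w, hw⟩ := Subtype.ext (by
    show c * w * c⁻¹ = w
    rw [hcwc, mul_inv_cancel_right])
  have hσw := perm_comm hσ hθw
  have hσ3 : σ ^ 3 = 1 := by
    apply perm_cube hσ
    intro x
    apply Subtype.ext
    show c * (c * (c * x * c⁻¹) * c⁻¹) * c⁻¹ = x
    have h1 : c * c * c = 1 := by rw [pow_succ, pow_two] at hc3'; exact hc3'
    calc c * (c * (c * (x : X) * c⁻¹) * c⁻¹) * c⁻¹ = (c * c * c) * x * (c * c * c)⁻¹ := by group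
      _ = x := by rw [h1]; group
  have hσ1 : σ = 1 := by
    refine A5.eq_one_of_comm5 (e ⟨w, hw⟩ : alternatingGroup (Fin 5)) ?_ ?_ σ hσw hσ3
    · have h1 : (e ⟨w, hw⟩) ^ 5 = 1 := by
        rw [← map_pow, show (⟨w, hw⟩ : H0) ^ 5 = 1 from Subtype.ext hw5, map_one]
      exact congrArg Subtype.val h1
    · intro h1
      have h2 : e ⟨w, hw⟩ = 1 := Subtype.ext h1
      have h3 : w = 1 := congrArg Subtype.val (e.injective (h2.trans (map_one e).symm))
      rw [h3, orderOf_one] at h5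
      omega
  subst hσ1
  refine ⟨c, fun x hx => ?_, by rw [hcu]; exact hu'V, by rw [hcu]; exact hu'u⟩
  have h1 : θ ⟨x, hx⟩ = ⟨x, hx⟩ := id_of_perm hσ _
  have h2 : c * x * c⁻¹ = x := congrArg Subtype.val h1
  exact mul_inv_eq_iff_eq_mul.1 h2

/-- `C(⟨w, t⟩) ≅ A₅` -/
theorem exists_equiv_A (h : Fus t u) (F : Full t u f U V H0) (h60 : Nat.card H0 = 60) {w : X} (hw : w ∈ H0)
    (h5 : orderOf w = 5) (hinv : t * w * t⁻¹ = w⁻¹) :
    Nonempty ((centralizer ({w} : Set X) ⊓ centralizer ({t} : Set X) : Subgroup X) ≃* alternatingGroup (Fin 5)) := by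
  have hG := Cfsg.Agent.J2Type.Order.card_of_fus h
  obtain ⟨q⟩ := exists_equiv_CQ h F h60 hG hw h5
  obtain ⟨c, hcH, hcV, hcu⟩ := exists_c h F h60 hw h5
  have htH : t ∈ H0 := F.U_le F.zU
  have htt : t * t = 1 := J2Type.CentU.zz h
  have hti : t⁻¹ = t := inv_eq_of_mul_eq_one_left htt
  have huu : u * u = 1 := J2Type.CentU.uu h
  have hu1 : u ≠ 1 := J2Type.CentU.u_ne h
  have huV : u ∈ V := F.uV
  have hVw : ∀ y ∈ V, y * w = w * y := fun y hy => V_comm h F h60 hy hw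
  have hodd5 : Odd 5 := by decide
  have hw5 : w ^ 5 = 1 := by rw [← h5]; exact pow_orderOf_eq_one w
  have hcw : c * w = w * c := hcH w hw
  have hct : c * t = t * c := hcH t htH
  have hut : u * t = t * u := V_comm h F h60 huV htH
  -- conjugation by `t` on `C(w)`
  have hC : ∀ x, x * w = w * x → (t * x * t⁻¹) * w = w * (t * x * t⁻¹) := by
    intro x hx
    have hw' : w = t * w⁻¹ * t⁻¹ := by
      rw [← hinv]
      calc w = (t * t) * w * (t * t)⁻¹ := by rw [htt]; group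
        _ = _ := by group
    have hx' : x * w⁻¹ = w⁻¹ * x := (show Commute x w from hx).inv_right
    calc (t * x * t⁻¹) * w = (t * x * t⁻¹) * (t * w⁻¹ * t⁻¹) := by rw [← hw']
      _ = t * (x * w⁻¹) * t⁻¹ := by group
      _ = (t * w⁻¹ * t⁻¹) * (t * x * t⁻¹) := by rw [hx']; group
      _ = w * (t * x * t⁻¹) := by rw [← hw']
  have hcc : ∀ x, t * (t * x * t⁻¹) * t⁻¹ = x := by
    intro x
    calc t * (t * x * t⁻¹) * t⁻¹ = (t * t) * x * (t * t)⁻¹ := by group
      _ = x := by rw [htt]; group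
  let θ : MulAut (centralizer ({w} : Set X)) :=
    { toFun := fun x => ⟨t * x * t⁻¹, mem_centralizer_singleton_iff.2 (hC x (mem_centralizer_singleton_iff.1 x.2))⟩
      invFun := fun x => ⟨t * x * t⁻¹, mem_centralizer_singleton_iff.2 (hC x (mem_centralizer_singleton_iff.1 x.2))⟩
      left_inv := fun x => Subtype.ext (hcc x)
      right_inv := fun x => Subtype.ext (hcc x)
      map_mul' := fun x y => Subtype.ext (by
        show t * (x * y) * t⁻¹ = (t * x * t⁻¹) * (t * y * t⁻¹); group) }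
  have hθw : ∀ x ∈ cyc w, θ x ∈ cyc w := by
    intro x hx
    rw [mem_cyc] at hx ⊢
    obtain ⟨k, hk⟩ := mem_zpowers_iff.1 hx
    show t * (x : X) * t⁻¹ ∈ zpowers w
    rw [← hk, ← conj_zpow, hinv]
    exact zpow_mem (inv_mem (mem_zpowers w)) k
  have hmap : (cyc w).map (θ : centralizer ({w} : Set X) ≃* centralizer ({w} : Set X)).toMonoidHom = cyc w := by
    ext x
    constructor
    · rintro ⟨y, hy, rfl⟩
      exact hθw y hy
    · intro hx
      exact ⟨θ x, hθw x hx, Subtype.ext (hcc x)⟩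
  let τ : MulAut (CQ w) := QuotientGroup.congr (cyc w) (cyc w) θ hmap
  have hτ : ∀ x : centralizer ({w} : Set X), τ (x : CQ w) = (θ x : CQ w) := fun x => rfl
  obtain ⟨σ, hσ⟩ := exists_perm q τ
  let a : centralizer ({w} : Set X) := ⟨u, mem_centralizer_singleton_iff.2 (hVw u huV)⟩
  let b : centralizer ({w} : Set X) := ⟨c, mem_centralizer_singleton_iff.2 hcw⟩
  have hθa : θ a = a := Subtype.ext (by show t * u * t⁻¹ = u; rw [← hut, mul_inv_cancel_right])
  have hθb : θ b = b := Subtype.ext (by show t * c * t⁻¹ = c; rw [← hct, mul_inv_cancel_right])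
  have hσa := perm_comm hσ (x := (a : CQ w)) (by rw [hτ, hθa])
  have hσb := perm_comm hσ (x := (b : CQ w)) (by rw [hτ, hθb])
  have hne : ∀ x : centralizer ({w} : Set X), (x : X) * x = 1 → (x : CQ w) = 1 → (x : X) = 1 := by
    intro x hx hx1
    exact eq_one_of_sq_of_mem_zpowers hodd5 h5 hx ((J2Type.CentQuot.mk_eq_one x).1 hx1)
  have hσ1 : σ = 1 := by
    refine A5.eq_one_of_comm4 (q (a : CQ w)) (q (b : CQ w)) ?_ ?_ ?_ ?_ σ hσa hσb
    · rw [← map_mul, ← QuotientGroup.mk_mul, show a * a = 1 from Subtype.ext huu]; exact map_one q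
    · exact fun h' => hu1 (hne a huu (q.injective (h'.trans (map_one q).symm)))
    · rw [← map_inv, ← map_mul, ← map_mul, ← map_mul, ← map_mul, ← QuotientGroup.mk_inv, ← QuotientGroup.mk_mul,
        ← QuotientGroup.mk_mul, ← QuotientGroup.mk_mul, ← QuotientGroup.mk_mul,
        show a * (b * a * b⁻¹) = b * a * b⁻¹ * a from Subtype.ext (comm_V h F huV hcV)]
    · intro h'
      rw [← map_inv, ← map_mul, ← map_mul, ← QuotientGroup.mk_inv, ← QuotientGroup.mk_mul,
        ← QuotientGroup.mk_mul] at h'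
      have h1 : ((a⁻¹ * (b * a * b⁻¹) : centralizer ({w} : Set X)) : CQ w) = 1 := by
        rw [QuotientGroup.mk_mul, q.injective h', QuotientGroup.mk_inv, inv_mul_cancel]
      have h2 := hne (a⁻¹ * (b * a * b⁻¹)) (by
        show (u⁻¹ * (c * u * c⁻¹)) * (u⁻¹ * (c * u * c⁻¹)) = 1
        exact sq_V h F (V.mul_mem (V.inv_mem huV) hcV)) h1
      have h3 : u⁻¹ * (c * u * c⁻¹) = 1 := h2
      exact hcu (inv_mul_eq_one.1 h3).symm
  subst hσ1
  have hfix : ∀ x : centralizer ({w} : Set X), ∃ k : ℤ, t * (x : X) * t⁻¹ = x * w ^ k := by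
    intro x
    have h1 : τ (x : CQ w) = (x : CQ w) := id_of_perm hσ _
    rw [hτ] at h1
    obtain ⟨k, hk⟩ := mem_zpowers_iff.1 (mem_cyc.1 (QuotientGroup.eq.1 h1.symm))
    have hk' : w ^ k = (x : X)⁻¹ * (t * (x : X) * t⁻¹) := hk
    exact ⟨k, by rw [hk']; group⟩
  -- the isomorphism
  set A : Subgroup X := centralizer ({w} : Set X) ⊓ centralizer ({t} : Set X) with hA
  have hle : A ≤ centralizer ({w} : Set X) := inf_le_left
  let g : A →* CQ w := (QuotientGroup.mk' (cyc w)).comp (Subgroup.inclusion hle)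
  have hg : ∀ x : A, g x = ((⟨x, hle x.2⟩ : centralizer ({w} : Set X)) : CQ w) := fun x => rfl
  have hbij : Function.Bijective g := by
    constructor
    · rw [injective_iff_map_eq_one]
      intro x hx
      rw [hg] at hx
      have hxw : (x : X) ∈ zpowers w := (J2Type.CentQuot.mk_eq_one _).1 hx
      obtain ⟨k, hk⟩ := mem_zpowers_iff.1 hxw
      have hxt : (x : X) * t = t * x := mem_centralizer_singleton_iff.1 (mem_inf.1 x.2).2
      have h1 : t * (x : X) * t⁻¹ = (x : X)⁻¹ := by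
        rw [← hk, ← conj_zpow, hinv, inv_zpow]
      have h2 : t * (x : X) * t⁻¹ = x := by rw [← hxt, mul_inv_cancel_right]
      have h3 : (x : X) * x = 1 := by
        rw [h2] at h1
        exact eq_inv_iff_mul_eq_one.1 h1
      exact Subtype.ext (eq_one_of_sq_of_mem_zpowers hodd5 h5 h3 hxw)
    · intro y
      obtain ⟨x, rfl⟩ := QuotientGroup.mk_surjective y
      obtain ⟨k, hk⟩ := hfix x
      have hxw : (x : X) * w = w * x := mem_centralizer_singleton_iff.1 x.2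
      have h1 : t * ((x : X) * w ^ (3 * k)) * t⁻¹ = x * w ^ (3 * k) := by
        calc t * ((x : X) * w ^ (3 * k)) * t⁻¹ = (t * (x : X) * t⁻¹) * (t * w * t⁻¹) ^ (3 * k) := by
              rw [conj_zpow]; group
          _ = (x * w ^ k) * (w⁻¹) ^ (3 * k) := by rw [hk, hinv]
          _ = x * w ^ (3 * k) * (w ^ 5) ^ (-k) := by
              rw [inv_zpow, mul_assoc, mul_assoc, ← zpow_natCast w 5, ← zpow_mul, ← zpow_neg, ← zpow_add,
                ← zpow_add]
              congr 2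
              push_cast; ring
          _ = x * w ^ (3 * k) := by rw [hw5, one_zpow, mul_one]
      have hm : (x : X) * w ^ (3 * k) ∈ A := by
        rw [hA, mem_inf, mem_centralizer_singleton_iff, mem_centralizer_singleton_iff]
        refine ⟨?_, (mul_inv_eq_iff_eq_mul.1 h1).symm⟩
        exact ((show Commute (x : X) w from hxw).mul_left ((Commute.refl w).zpow_left _)).eq
      refine ⟨⟨_, hm⟩, ?_⟩
      rw [hg, QuotientGroup.eq, mem_cyc]
      show ((x : X) * w ^ (3 * k))⁻¹ * x ∈ zpowers w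
      rw [mul_inv_rev, inv_mul_cancel_right]
      exact inv_mem (zpow_mem_zpowers w _)
  exact ⟨(MulEquiv.ofBijective g hbij).trans q⟩

/-- a 2-subgroup of `C(u)` centralising an element inverted by `u` and normalised by `w` is trivial -/
theorem eq_bot_of (h : Fus t u) (F : Full t u f U V H0) (h60 : Nat.card H0 = 60) {w : X} (hw : w ∈ H0)
    (h5 : orderOf w = 5) {y : X} (hy5 : orderOf y = 5) (hinv : u * y * u⁻¹ = y⁻¹) (R : Subgroup X)
    (hR : IsPGroup 2 R) (hu : ∀ r ∈ R, r * u = u * r) (hy : ∀ r ∈ R, r * y = y * r)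
    (hn : ∀ r ∈ R, w * r * w⁻¹ ∈ R) : ∀ r ∈ R, r = 1 := by
  obtain ⟨e⟩ := exists_equiv h F h60
  have hw5 : w ^ 5 = 1 := by rw [← h5]; exact pow_orderOf_eq_one w
  have huy : u * y ≠ y * u := by
    intro h'
    rw [h', mul_inv_cancel_right] at hinv
    have h1 : y * y = 1 := eq_inv_iff_mul_eq_one.1 hinv
    have h2 : orderOf y ∣ 2 := orderOf_dvd_of_pow_eq_one (by rw [pow_two]; exact h1)
    rw [hy5] at h2
    omega
  -- `R ∩ V = 1`
  have hRV : ∀ r ∈ R, r ∈ V → r = 1 := by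
    intro r hr hrV
    by_contra hr1
    have h1 : y ∈ centralizer ({r} : Set X) := mem_centralizer_singleton_iff.2 (hy r hr).symm
    rw [centralizer_eq h F h60 hrV hr1] at h1
    exact huy (mem_centralizer_singleton_iff.1 h1).symm
  have hw0 : (e ⟨w, hw⟩) ^ 5 = 1 := by
    rw [← map_pow, show (⟨w, hw⟩ : H0) ^ 5 = 1 from Subtype.ext hw5, map_one]
  have hw1 : e ⟨w, hw⟩ ≠ 1 := by
    intro h2
    have h3 : w = 1 := congrArg Subtype.val (e.injective (h2.trans (map_one e).symm))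
    rw [h3, orderOf_one] at h5
    omega
  -- `R ∩ H0 = 1`
  have hRH : ∀ r ∈ R, r ∈ H0 → r = 1 := by
    have hsq : ∀ r ∈ R, r ∈ H0 → r * r = 1 := by
      intro r hr hrH
      obtain ⟨k, hk⟩ := hR ⟨r, hr⟩
      have hk' : r ^ 2 ^ k = 1 := congrArg Subtype.val hk
      have hback : ∀ n : ℕ, (e ⟨r, hrH⟩) ^ n = 1 → r ^ n = 1 := by
        intro n hn
        rw [← map_pow] at hn
        exact congrArg Subtype.val (e.injective (hn.trans (map_one e).symm))
      have hodd : ∀ n : ℕ, Odd n → r ^ n = 1 → r * r = 1 := by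
        intro n hn hrn
        have h1 : orderOf r ∣ n := orderOf_dvd_of_pow_eq_one hrn
        have h2 : orderOf r ∣ 2 ^ k := orderOf_dvd_of_pow_eq_one hk'
        have h3 : orderOf r = 1 :=
          Nat.Coprime.eq_one_of_dvd (Nat.Coprime.pow_right k ((Nat.coprime_two_right).2 (Odd.of_dvd_nat hn h1))) h2
        rw [orderOf_eq_one_iff.1 h3, one_mul]
      rcases A5.ord_cases (e ⟨r, hrH⟩) with h2 | h3 | h5'
      · rw [← pow_two]; exact hback 2 h2
      · exact hodd 3 (by decide) (hback 3 h3)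
      · exact hodd 5 (by decide) (hback 5 h5')
    intro r hr hrH
    have hwR : w * r * w⁻¹ ∈ R := hn r hr
    have hwH : w * r * w⁻¹ ∈ H0 := H0.mul_mem (H0.mul_mem hw hrH) (H0.inv_mem hw)
    have hwwR : w ^ 2 * r * (w ^ 2)⁻¹ ∈ R := by
      have := hn _ hwR
      have e1 : w * (w * r * w⁻¹) * w⁻¹ = w ^ 2 * r * (w ^ 2)⁻¹ := by rw [pow_two]; group
      rwa [e1] at this
    have hwwH : w ^ 2 * r * (w ^ 2)⁻¹ ∈ H0 :=
      H0.mul_mem (H0.mul_mem (H0.pow_mem hw 2) hrH) (H0.inv_mem (H0.pow_mem hw 2))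
    have key := A5.no_norm (e ⟨w, hw⟩) hw0 hw1 (e ⟨r, hrH⟩)
      (by rw [← map_mul, show (⟨r, hrH⟩ : H0) * ⟨r, hrH⟩ = 1 from Subtype.ext (hsq r hr hrH), map_one])
      (by
        rw [← map_inv, ← map_mul, ← map_mul, ← map_mul, ← map_mul]
        rw [show (⟨r, hrH⟩ : H0) * (⟨w, hw⟩ * ⟨r, hrH⟩ * (⟨w, hw⟩)⁻¹) * (⟨r, hrH⟩ * (⟨w, hw⟩ * ⟨r, hrH⟩ * (⟨w, hw⟩)⁻¹)) = 1
          from Subtype.ext (hsq _ (R.mul_mem hr hwR) (H0.mul_mem hrH hwH)), map_one])
      (by
        rw [← map_pow, ← map_inv, ← map_mul, ← map_mul, ← map_mul, ← map_mul]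
        rw [show (⟨r, hrH⟩ : H0) * (⟨w, hw⟩ ^ 2 * ⟨r, hrH⟩ * (⟨w, hw⟩ ^ 2)⁻¹) *
          (⟨r, hrH⟩ * (⟨w, hw⟩ ^ 2 * ⟨r, hrH⟩ * (⟨w, hw⟩ ^ 2)⁻¹)) = 1
          from Subtype.ext (hsq _ (R.mul_mem hr hwwR) (H0.mul_mem hrH hwwH)), map_one])
    exact congrArg Subtype.val (e.injective (key.trans (map_one e).symm))
  intro r hr
  obtain ⟨a, ha, b, hb, rfl⟩ := exists_mul F (mem_centralizer_singleton_iff.2 (hu r hr))
  have haw : a * w = w * a := V_comm h F h60 ha hw
  have hab : a * b = b * a := V_comm h F h60 ha hb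
  -- `[w, a b] = [w, b] ∈ H0 ∩ R`
  have h1 : w * (a * b) * w⁻¹ * (a * b)⁻¹ = w * b * w⁻¹ * b⁻¹ := by
    calc w * (a * b) * w⁻¹ * (a * b)⁻¹ = (w * a) * b * w⁻¹ * b⁻¹ * a⁻¹ := by group
      _ = a * (w * b * w⁻¹ * b⁻¹) * a⁻¹ := by rw [← haw]; group
      _ = (w * b * w⁻¹ * b⁻¹) * a * a⁻¹ := by
          rw [V_comm h F h60 ha (H0.mul_mem (H0.mul_mem (H0.mul_mem hw hb) (H0.inv_mem hw)) (H0.inv_mem hb))]
      _ = _ := by group
  have h2 : w * b * w⁻¹ * b⁻¹ = 1 := by
    apply hRH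
    · rw [← h1]
      exact R.mul_mem (hn _ hr) (R.inv_mem hr)
    · exact H0.mul_mem (H0.mul_mem (H0.mul_mem hw hb) (H0.inv_mem hw)) (H0.inv_mem hb)
  have h3 : b * w = w * b := by
    have h4 := mul_inv_eq_one.1 h2
    exact (mul_inv_eq_iff_eq_mul.1 h4).symm
  have h5' : orderOf (⟨w, hw⟩ : H0) = 5 := by rw [← orderOf_coe]; exact h5
  have h6 := J2Type.A5Facts.mem_zpowers_of_comm e (g := (⟨w, hw⟩ : H0)) (x := ⟨b, hb⟩) h5' (Subtype.ext h3)
  obtain ⟨m, hm⟩ := mem_zpowers_iff.1 h6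
  have hm' : w ^ m = b := congrArg Subtype.val hm
  have hb5 : b ^ 5 = 1 := by
    rw [← hm', ← zpow_natCast, ← zpow_mul, mul_comm, zpow_mul, zpow_natCast, hw5, one_zpow]
  -- `(a b) ^ 2 ^ k = 1`
  obtain ⟨k, hk⟩ := hR ⟨a * b, hr⟩
  have hk' : (a * b) ^ 2 ^ k = 1 := congrArg Subtype.val hk
  have hb1 : b = 1 := by
    rw [(show Commute a b from hab).mul_pow] at hk'
    have h7 : b ^ 2 ^ k ∈ V := by
      rw [eq_inv_of_mul_eq_one_right hk']
      exact V.inv_mem (V.pow_mem ha _)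
    have h8 : b ^ 2 ^ k = 1 := V_inf_H0 F h7 (H0.pow_mem hb _)
    have h9 : orderOf b ∣ 5 := orderOf_dvd_of_pow_eq_one hb5
    have h10 : orderOf b ∣ 2 ^ k := orderOf_dvd_of_pow_eq_one h8
    have h11 : orderOf b = 1 :=
      Nat.Coprime.eq_one_of_dvd (Nat.Coprime.pow_right k ((Nat.coprime_two_right).2
        (Odd.of_dvd_nat (by decide) h9))) h10
    exact orderOf_eq_one_iff.1 h11
  rw [hb1, mul_one] at hr ⊢
  exact hRV a hr ha

end basic

end Cfsg.Agent.H96.SK.J2Facts
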