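import Cfsg.Agent.H282.SK.Def
import Cfsg.Agent.H96.SK.J2Facts
import Cfsg.Agent.KFacts.J2.Facts

/-!
# Sidki pairs, the row `J₂` (helper96)

`dead`: no minimal counterexample to S3010 has component `J₂`.

Let `w` have order 5, inverted by the 2-central involution `t`, in the `A₅` of `C(u) = V × A₅`; `A = C(⟨w, t⟩) ≅ A₅`
contains `V`. An element commuting with `t` and an element of order 5 of `C_K(t)` lies in `K` (`mem_K`). If `t` is in
the Sidki group, the element of `O₂(C(⟨t, w⟩))` centralises `A`, so lies in `K ∩ O₂(C(⟨t, w⟩)) = 1`. If `u` is, take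
`y ∈ A` of order 5 inverted by `u`: `O₂(C(⟨u, y⟩)) ∩ K` is normalised by `w`, hence trivial, and the element of
`O₂(C(⟨u, y⟩))` centralises `y` and `t`, hence lies in `K`.
-/

set_option autoImplicit false
set_option linter.style.haveILetI false

universe u₁

namespace Cfsg.Agent.H96.SK.J2

open Subgroup Cfsg.Agent.J2Type.Model Cfsg.Agent.J2Type.SPFacts Cfsg.Agent.J2Type.CStruct
open Cfsg.Agent.J3Type.OneClass Cfsg.Agent.J2Type.Base Cfsg.Agent.KFacts.J2.Basic Cfsg.Agent.KFacts.J2.Aut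
open Cfsg.Agent.H96.SK.J2Facts Cfsg.Agent.H282.SK

section auto

variable {X : Type*} [Group X] {t u : X} {Q : Subgroup (centralizer ({t} : Set X))}
  {v : Fin 5 → centralizer ({t} : Set X)} {ρ : centralizer ({t} : Set X) →* SP}

/-- an automorphism fixing `t` and an element of order 5 of `C(t)` is inner -/
theorem inner_of_fix [Finite X] (D : Dat t u Q v ρ) (α : MulAut X) (hα : α t = t) {x : X} (hx5 : orderOf x = 5)
    (hxt : x * t = t * x) (hαx : α x = x) : ∃ k : X, α = MulAut.conj k := by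
  obtain ⟨σ, s, hs⟩ := D.exists_act α hα
  have hcx := act_conj D hxt
  set π := (ρ ⟨x, mem_cent.2 hxt⟩).σ with hπ
  have e : α * MulAut.conj x = MulAut.conj x * α := by
    apply MulEquiv.ext
    intro y
    show α (x * y * x⁻¹) = x * α y * x⁻¹
    rw [map_mul, map_mul, map_inv, hαx]
  have hxt' : (MulAut.conj x) t = t := by
    show x * t * x⁻¹ = t
    rw [hxt, mul_inv_cancel_right]
  have h1 := act_mul D hα hs hcx
  have h2 := act_mul D hxt' hcx hs
  rw [e] at h1
  have h3 := (act_inj D h1 h2).1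
  have hx5' : x ^ 5 = 1 := by rw [← hx5]; exact pow_orderOf_eq_one x
  have hπ5 : π ^ 5 = 1 := by
    have h4 : (⟨x, mem_cent.2 hxt⟩ : centralizer ({t} : Set X)) ^ 5 = 1 := Subtype.ext hx5'
    have h5 : ρ ⟨x, mem_cent.2 hxt⟩ ^ 5 = 1 := by rw [← map_pow, h4, map_one]
    have h6 : ∀ (g : SP) (n : ℕ), (g ^ n).σ = g.σ ^ n := by
      intro g n
      induction n with
      | zero => rfl
      | succ n ih => rw [pow_succ, mul_σ, ih, pow_succ]
    rw [hπ, ← h6, h5]
    rfl
  have hπ1 : π ≠ 1 := by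
    intro h4
    have hQ : (⟨x, mem_cent.2 hxt⟩ : centralizer ({t} : Set X)) ∈ Q := (D.M.mem_Q _).2 h4
    have h32 := Subgroup.orderOf_dvd_natCard Q hQ
    rw [D.cardQ, ← orderOf_coe] at h32
    change orderOf x ∣ 32 at h32
    rw [hx5] at h32
    omega
  exact D.inner_of_even α hα σ s hs (A5.even_of_comm π hπ5 hπ1 σ h3)

end auto

section G

variable {G : Type u₁} [Group G] [Finite G] {W K : Subgroup G}

/-- the automorphism of `X ≃ K` induced by `r` -/
noncomputable def aut {X : Type*} [Group X] (hK : K.Normal) (e : X ≃* K) (r : G) : MulAut X :=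
  (e.trans (MulAut.conjNormal (H := K) r)).trans e.symm

theorem aut_apply {X : Type*} [Group X] (hK : K.Normal) (e : X ≃* K) (r : G) (x : X) :
    ((e (aut hK e r x) : K) : G) = r * (e x : G) * r⁻¹ := by
  show ((e (e.symm (MulAut.conjNormal (H := K) r (e x))) : K) : G) = _
  rw [e.apply_symm_apply]
  exact MulAut.conjNormal_apply r (e x)

theorem aut_fix {X : Type*} [Group X] (hK : K.Normal) (e : X ≃* K) (r : G) {x : X} (hx : Commute r (e x : G)) :
    aut hK e r x = x := by
  apply e.injective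
  apply Subtype.ext
  rw [aut_apply, hx.eq, mul_inv_cancel_right]

theorem aut_mul {X : Type*} [Group X] (hK : K.Normal) (e : X ≃* K) (r s : G) :
    aut hK e (r * s) = aut hK e r * aut hK e s := by
  apply MulEquiv.ext
  intro x
  apply e.injective
  apply Subtype.ext
  rw [aut_apply, MulAut.mul_apply, aut_apply, aut_apply]
  group

/-- an element inducing an inner automorphism lies in `K` -/
theorem mem_of_inner {X : Type*} [Group X] (h : Cx W K) (e : X ≃* K) {r : G} {k : X}
    (hk : aut h.norm e r = MulAut.conj k) : r ∈ K := by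
  have h1 : (e k : G)⁻¹ * r = 1 := by
    apply h.eq_one_of_comm
    intro y hy
    have h2 := aut_apply h.norm e r (e.symm ⟨y, hy⟩)
    rw [hk, MulAut.conj_apply, map_mul, map_mul, map_inv, e.apply_symm_apply] at h2
    have h3 : (e k : G) * y * (e k : G)⁻¹ = r * y * r⁻¹ := h2
    calc (e k : G)⁻¹ * r * y = (e k : G)⁻¹ * (r * y * r⁻¹) * r := by group
      _ = (e k : G)⁻¹ * ((e k : G) * y * (e k : G)⁻¹) * r := by rw [h3]
      _ = y * ((e k : G)⁻¹ * r) := by group
  have h2 : r = e k := (inv_mul_eq_one.1 h1).symm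
  rw [h2]
  exact (e k).2

variable {X : Type*} [Group X] [Finite X] {t u : X} {Q : Subgroup (centralizer ({t} : Set X))}
  {v : Fin 5 → centralizer ({t} : Set X)} {ρ : centralizer ({t} : Set X) →* SP}

theorem mem_K (h : Cx W K) (e : X ≃* K) (D : Dat t u Q v ρ) {x : X} (hx5 : orderOf x = 5) (hxt : x * t = t * x)
    {r : G} (hrt : Commute r (e t : G)) (hrx : Commute r (e x : G)) : r ∈ K := by
  obtain ⟨k, hk⟩ := inner_of_fix D (aut h.norm e r) (aut_fix h.norm e r hrt) hx5 hxt (aut_fix h.norm e r hrx)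
  exact mem_of_inner h e hk

/-- `W ∩ K ≠ 1` -/
theorem exists_inf (h : Cx W K) (e : X ≃* K) (D : Dat t u Q v ρ) : ∃ a ∈ W, a ≠ 1 ∧ a ∈ K := by
  classical
  by_contra hcon
  push Not at hcon
  -- three elements
  obtain ⟨a, b, ha, hb, ha1, hb1, hab⟩ : ∃ a b : G, a ∈ W ∧ b ∈ W ∧ a ≠ 1 ∧ b ≠ 1 ∧ a ≠ b := by
    by_contra hno
    push Not at hno
    have h8 := h.card
    have hex : ∃ a ∈ W, a ≠ 1 := by
      by_contra h1
      push Not at h1
      apply h.V_ne_bot
      rw [eq_bot_iff]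
      intro x hx
      rw [mem_bot]
      exact h1 x hx
    obtain ⟨a, ha, ha1⟩ := hex
    have hs : (W : Set G) ⊆ ({1, a} : Set G) := by
      intro x hx
      by_cases hx1 : x = 1
      · exact Or.inl hx1
      · exact Or.inr (hno a x ha hx ha1 hx1).symm
    have h2 : Nat.card W ≤ 2 := by
      calc Nat.card W = (W : Set G).ncard := (Nat.card_coe_set_eq _)
        _ ≤ ({1, a} : Set G).ncard := Set.ncard_le_ncard hs (Set.toFinite _)
        _ = 2 := Set.ncard_pair ha1.symm
    omega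
  have hout : ∀ c ∈ W, c ≠ 1 → ∀ k, aut h.norm e c ≠ MulAut.conj k := by
    intro c hc hc1 k hk
    exact hcon c hc hc1 (mem_of_inner h e hk)
  obtain ⟨k, hk⟩ := mul_inner D (hout a ha ha1) (hout b hb hb1)
  rw [← aut_mul] at hk
  refine hcon (a * b) (W.mul_mem ha hb) ?_ (mem_of_inner h e hk)
  intro h1
  apply hab
  rw [eq_inv_of_mul_eq_one_left h1, h.inv_eq hb]

/-- the first case -/
theorem case_t (h : Cx W K) (e : X ≃* K) (D : Dat t u Q v ρ) (ht : (e t : G) ∈ W) : False := by
  obtain ⟨f, U, V, H0, F⟩ := Cfsg.Agent.J2Type.CentU.main D.F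
  have h60 := (Cfsg.Agent.J2Type.Order.order_of_fus D.F F.str).2.2.1
  obtain ⟨w, hwH, hw5, hinv⟩ := exists_w D.F F h60
  obtain ⟨q⟩ := exists_equiv_A D.F F h60 hwH hw5 hinv
  set A : Subgroup X := centralizer ({w} : Set X) ⊓ centralizer ({t} : Set X) with hA
  have hmA : ∀ a ∈ A, a * w = w * a ∧ a * t = t * a := fun a ha =>
    ⟨mem_centralizer_singleton_iff.1 (mem_inf.1 ha).1, mem_centralizer_singleton_iff.1 (mem_inf.1 ha).2⟩
  have hord : ∀ x : X, orderOf ((e x : K) : G) = orderOf x := fun x => by rw [orderOf_coe, MulEquiv.orderOf_eq]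
  have ht1 : ((e t : K) : G) ≠ 1 := fun h' => D.t_ne (e.injective ((Subtype.ext h').trans (map_one e).symm))
  obtain ⟨r, hrW, hr1, hrw, hrO⟩ := h.t1 (v := (e t : G)) (x := (e w : G)) ht ht1
    (by rw [hord, hw5]; decide) (by
      rw [← coe_mul, ← coe_inv, ← coe_mul, ← map_mul, ← map_inv, ← map_mul, hinv]
      rw [map_inv]; rfl)
  set C := centralizer ({((e t : K) : G)} : Set G) ⊓ centralizer ({((e w : K) : G)} : Set G) with hC
  -- the embedding of `A`
  let φ : A →* G := (K.subtype.comp e.toMonoidHom).comp A.subtype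
  have hφ : ∀ a : A, φ a = (e a : G) := fun a => rfl
  have hφinj : Function.Injective φ := by
    intro a b hab
    exact Subtype.ext (e.injective (Subtype.ext hab))
  have hφC : ∀ a : A, φ a ∈ C := by
    intro a
    obtain ⟨h1, h2⟩ := hmA a a.2
    rw [hC, mem_inf, mem_centralizer_singleton_iff, mem_centralizer_singleton_iff, hφ]
    constructor
    · rw [← coe_mul, ← map_mul, h2, map_mul]; rfl
    · rw [← coe_mul, ← map_mul, h1, map_mul]; rfl
  let N : Subgroup A := (O2 C).comap φ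
  have hNn : N.Normal := by
    refine ⟨fun n hn a => ?_⟩
    show φ (a * n * a⁻¹) ∈ O2 C
    rw [map_mul, map_mul, map_inv]
    exact conj_mem_O2 (hφC a) hn
  have hNp : IsPGroup 2 N := (isPGroup_O2 C).comap_of_injective φ hφinj
  haveI hsimp : IsSimpleGroup A :=
    haveI := alternatingGroup.isSimpleGroup (α := Fin 5) (by simp)
    q.isSimpleGroup
  have hNbot : N = ⊥ := by
    rcases hNn.eq_bot_or_eq_top with h1 | h1
    · exact h1
    · exfalso
      rw [h1] at hNp
      obtain ⟨n, hn⟩ := IsPGroup.iff_card.1 hNp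
      rw [card_top, Nat.card_congr q.toEquiv, Cfsg.Agent.KFacts.QMinus.card_A5] at hn
      have h5 : (3 : ℕ) ∣ 2 ^ n := by rw [← hn]; norm_num
      have := Nat.Prime.dvd_of_dvd_pow Nat.prime_three h5
      omega
  -- elements of `O2 C ∩ K` are trivial
  have hO2K : ∀ y ∈ O2 C, y ∈ K → y = 1 := by
    intro y hy hyK
    have hyC : y ∈ C := O2_le C hy
    rw [hC, mem_inf, mem_centralizer_singleton_iff, mem_centralizer_singleton_iff] at hyC
    have hyA : e.symm ⟨y, hyK⟩ ∈ A := by
      rw [hA, mem_inf, mem_centralizer_singleton_iff, mem_centralizer_singleton_iff]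
      constructor
      · apply e.injective
        rw [map_mul, map_mul, e.apply_symm_apply]
        exact Subtype.ext hyC.2
      · apply e.injective
        rw [map_mul, map_mul, e.apply_symm_apply]
        exact Subtype.ext hyC.1
    have hyN : (⟨_, hyA⟩ : A) ∈ N := by
      show φ ⟨_, hyA⟩ ∈ O2 C
      rw [hφ]
      show ((e (e.symm ⟨y, hyK⟩) : K) : G) ∈ O2 C
      rw [e.apply_symm_apply]
      exact hy
    rw [hNbot, mem_bot] at hyN
    have h1 : e.symm ⟨y, hyK⟩ = 1 := congrArg Subtype.val hyN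
    have h2 : (⟨y, hyK⟩ : K) = 1 := e.symm.injective (h1.trans (map_one e.symm).symm)
    exact congrArg Subtype.val h2
  -- `r` commutes with `A`
  have hrA : ∀ a : A, Commute r (φ a) := by
    intro a
    have h1 : r * φ a * r⁻¹ * (φ a)⁻¹ = 1 := by
      apply hO2K
      · have e1 : r * φ a * r⁻¹ * (φ a)⁻¹ = r * (φ a * r⁻¹ * (φ a)⁻¹) := by group
        rw [e1]
        exact (O2 C).mul_mem hrO (conj_mem_O2 (hφC a) ((O2 C).inv_mem hrO))
      · exact K.mul_mem (h.norm.conj_mem _ (e a).2 r) (K.inv_mem (e a).2)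
    rw [mul_inv_eq_one, mul_inv_eq_iff_eq_mul] at h1
    exact h1
  -- an element of order 5 of `A`
  haveI : Fact (Nat.Prime 5) := ⟨by norm_num⟩
  obtain ⟨x, hx5⟩ := exists_prime_orderOf_dvd_card' (G := A) 5
    (by rw [Nat.card_congr q.toEquiv, Cfsg.Agent.KFacts.QMinus.card_A5]; norm_num)
  have hrK : r ∈ K := by
    refine mem_K h e D (x := (x : X)) (by rw [orderOf_coe]; exact hx5) (hmA x x.2).2 ?_ (hrA x)
    have := O2_le C hrO
    rw [hC, mem_inf, mem_centralizer_singleton_iff] at this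
    exact this.1
  exact hr1 (hO2K r hrO hrK)

/-- the second case -/
theorem case_u (h : Cx W K) (e : X ≃* K) (D : Dat t u Q v ρ) (hu : (e u : G) ∈ W) : False := by
  obtain ⟨f, U, V, H0, F⟩ := Cfsg.Agent.J2Type.CentU.main D.F
  have h60 := (Cfsg.Agent.J2Type.Order.order_of_fus D.F F.str).2.2.1
  obtain ⟨w, hwH, hw5, hinv⟩ := exists_w D.F F h60
  obtain ⟨q⟩ := exists_equiv_A D.F F h60 hwH hw5 hinv
  set A : Subgroup X := centralizer ({w} : Set X) ⊓ centralizer ({t} : Set X) with hA
  have hmA : ∀ a ∈ A, a * w = w * a ∧ a * t = t * a := fun a ha =>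
    ⟨mem_centralizer_singleton_iff.1 (mem_inf.1 ha).1, mem_centralizer_singleton_iff.1 (mem_inf.1 ha).2⟩
  have hord : ∀ x : X, orderOf ((e x : K) : G) = orderOf x := fun x => by rw [orderOf_coe, MulEquiv.orderOf_eq]
  have hu1 : ((e u : K) : G) ≠ 1 := fun h' => D.u_ne (e.injective ((Subtype.ext h').trans (map_one e).symm))
  have htH : t ∈ H0 := F.U_le F.zU
  have huw : u * w = w * u := Cfsg.Agent.J2Type.Cent5.V_comm D.F F h60 F.uV hwH
  have hut : u * t = t * u := Cfsg.Agent.J2Type.Cent5.V_comm D.F F h60 F.uV htH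
  have huA : u ∈ A := by
    rw [hA, mem_inf, mem_centralizer_singleton_iff, mem_centralizer_singleton_iff]
    exact ⟨huw, hut⟩
  obtain ⟨y0, hy05, hy01, hy0i⟩ := A5.exists_inv (q ⟨u, huA⟩)
    (by rw [← map_mul, show (⟨u, huA⟩ : A) * ⟨u, huA⟩ = 1 from Subtype.ext D.uu, map_one])
    (fun h' => D.u_ne (congrArg Subtype.val (q.injective (h'.trans (map_one q).symm))))
  set y : A := q.symm y0 with hy
  have hy5 : orderOf (y : X) = 5 := by
    rw [orderOf_coe, hy, MulEquiv.orderOf_eq]
    exact order_five hy05 hy01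
  have hyi : u * (y : X) * u⁻¹ = (y : X)⁻¹ := by
    have h2 : (⟨u, huA⟩ : A) * y * (⟨u, huA⟩)⁻¹ = y⁻¹ := by
      apply q.injective
      rw [map_mul, map_mul, map_inv, map_inv, hy, q.apply_symm_apply]
      exact hy0i
    exact congrArg Subtype.val h2
  obtain ⟨r, hrW, hr1, hry, hrO⟩ := h.t1 (v := (e u : G)) (x := (e y : G)) hu hu1
    (by rw [hord, hy5]; decide) (by
      rw [← coe_mul, ← coe_inv, ← coe_mul, ← map_mul, ← map_inv, ← map_mul, hyi]
      rw [map_inv]; rfl)
  set C := centralizer ({((e u : K) : G)} : Set G) ⊓ centralizer ({((e y : K) : G)} : Set G) with hC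
  let φ : X →* G := K.subtype.comp e.toMonoidHom
  have hφ : ∀ a : X, φ a = (e a : G) := fun a => rfl
  have hφinj : Function.Injective φ := by
    intro a b hab
    exact e.injective (Subtype.ext hab)
  have hφC : ∀ a : X, a * u = u * a → a * y = y * a → φ a ∈ C := by
    intro a h1 h2
    rw [hC, mem_inf, mem_centralizer_singleton_iff, mem_centralizer_singleton_iff, hφ]
    constructor
    · rw [← coe_mul, ← map_mul, h1, map_mul]; rfl
    · rw [← coe_mul, ← map_mul, h2, map_mul]; rfl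
  let R : Subgroup X := (O2 C).comap φ
  have hR : IsPGroup 2 R := (isPGroup_O2 C).comap_of_injective φ hφinj
  have hRC : ∀ x ∈ R, x * u = u * x ∧ x * y = y * x := by
    intro x hx
    have h1 : φ x ∈ C := O2_le C hx
    rw [hC, mem_inf, mem_centralizer_singleton_iff, mem_centralizer_singleton_iff] at h1
    constructor
    · apply hφinj
      rw [map_mul, map_mul]; exact h1.1
    · apply hφinj
      rw [map_mul, map_mul]; exact h1.2
  have hwC : φ w ∈ C := hφC w huw.symm (hmA y y.2).1.symm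
  have htC : φ t ∈ C := hφC t hut.symm (hmA y y.2).2.symm
  have hRbot := eq_bot_of D.F F h60 hwH hw5 hy5 hyi R hR (fun x hx => (hRC x hx).1) (fun x hx => (hRC x hx).2)
    (by
      intro x hx
      show φ (w * x * w⁻¹) ∈ O2 C
      rw [map_mul, map_mul, map_inv]
      exact conj_mem_O2 hwC hx)
  have hO2K : ∀ x ∈ O2 C, x ∈ K → x = 1 := by
    intro x hx hxK
    have h1 : e.symm ⟨x, hxK⟩ ∈ R := by
      show ((e (e.symm ⟨x, hxK⟩) : K) : G) ∈ O2 C
      rw [e.apply_symm_apply]
      exact hx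
    have h2 := hRbot _ h1
    have h3 : (⟨x, hxK⟩ : K) = 1 := e.symm.injective (h2.trans (map_one e.symm).symm)
    exact congrArg Subtype.val h3
  have hrt : Commute r (φ t) := by
    have h1 : r * φ t * r⁻¹ * (φ t)⁻¹ = 1 := by
      apply hO2K
      · have e1 : r * φ t * r⁻¹ * (φ t)⁻¹ = r * (φ t * r⁻¹ * (φ t)⁻¹) := by group
        rw [e1]
        exact (O2 C).mul_mem hrO (conj_mem_O2 htC ((O2 C).inv_mem hrO))
      · exact K.mul_mem (h.norm.conj_mem _ (e t).2 r) (K.inv_mem (e t).2)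
    rw [mul_inv_eq_one, mul_inv_eq_iff_eq_mul] at h1
    exact h1
  have hrK : r ∈ K := mem_K h e D hy5 (hmA y y.2).2 hrt hry
  exact hr1 (hO2K r hrO hrK)

end G

/-- **The row `J₂` is dead.** -/
theorem dead : DeadS.{u₁} (fun K _ => Cfsg.Spor.IsoJ2 K) := by
  intro G _ _ W K h hJ
  obtain ⟨t, u, Q, v, ρ, D⟩ := Cfsg.Agent.KFacts.J2.Facts.exists_dat_of hJ
  obtain ⟨a, haW, ha1, haK⟩ := exists_inf h (MulEquiv.refl K) D
  have ha2 : orderOf (⟨a, haK⟩ : K) = 2 := by
    apply orderOf_eq_prime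
    · rw [pow_two]; exact Subtype.ext (h.sq haW)
    · intro h'; exact ha1 (congrArg Subtype.val h')
  rcases D.F.cover _ ha2 with h1 | h1
  · obtain ⟨k, hk⟩ := isConj_iff.1 h1
    refine case_t h (MulAut.conj k) D ?_
    have h2 : MulAut.conj k t = ⟨a, haK⟩ := hk
    rw [h2]
    exact haW
  · obtain ⟨k, hk⟩ := isConj_iff.1 h1
    refine case_u h (MulAut.conj k) D ?_
    have h2 : MulAut.conj k u = ⟨a, haK⟩ := hk
    rw [h2]
    exact haW

end Cfsg.Agent.H96.SK.J2
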